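import Mathlib.AlgebraicGeometry.Fiber
import Mathlib.AlgebraicGeometry.Noetherian
import Mathlib.AlgebraicGeometry.Morphisms.FiniteType
import Mathlib.AlgebraicGeometry.Morphisms.Flat
import Mathlib.AlgebraicGeometry.Morphisms.Affine
import Mathlib.RingTheory.FiniteType

/-!
# Affine charts of the fibres of a morphism

For `f : X ⟶ Y`, a point `y`, affine charts `Spec A → X` over `Spec R → Y` with `y ∈ Spec R`, the scheme
`Spec (κ(y) ⊗_R A)` is an open subscheme of the fibre `f.fiber y`.
-/

set_option autoImplicit false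
universe u
open CategoryTheory CategoryTheory.Limits AlgebraicGeometry TensorProduct

namespace Groth.Agent.Dual.H347.FibChart

/-- The chart of the fibre attached to compatible affine charts of the source and the target. -/
theorem exists_chart {X Y : Scheme.{u}} (f : X ⟶ Y) (y : Y) {R A k : Type u} [CommRing R]
    [CommRing A] [CommRing k] [Algebra R A] [Algebra R k]
    (jU : Spec (CommRingCat.of A) ⟶ X) [IsOpenImmersion jU]
    (jV : Spec (CommRingCat.of R) ⟶ Y) [IsOpenImmersion jV]
    (w : jU ≫ f = Spec.map (CommRingCat.ofHom (algebraMap R A)) ≫ jV)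
    (e : Spec (CommRingCat.of k) ≅ Spec (Y.residueField y))
    (hk : Spec.map (CommRingCat.ofHom (algebraMap R k)) ≫ jV =
      e.hom ≫ Y.fromSpecResidueField y) :
    ∃ j : Spec (CommRingCat.of (k ⊗[R] A)) ⟶ f.fiber y,
      IsOpenImmersion j ∧
      j ≫ f.fiberι y = Spec.map (CommRingCat.ofHom
        (Algebra.TensorProduct.includeRight : A →ₐ[R] k ⊗[R] A).toRingHom) ≫ jU ∧
      ∀ x : f.fiber y, f.fiberι y x ∈ Set.range jU → x ∈ Set.range j := by
  -- the affine pullback square
  have P1 : IsPullback (Spec.map (CommRingCat.ofHom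
        (Algebra.TensorProduct.includeRight : A →ₐ[R] k ⊗[R] A).toRingHom))
      (Spec.map (CommRingCat.ofHom (Algebra.TensorProduct.includeLeftRingHom : k →+* k ⊗[R] A)))
      (Spec.map (CommRingCat.ofHom (algebraMap R A)))
      (Spec.map (CommRingCat.ofHom (algebraMap R k))) :=
    (isPullback_SpecMap_of_isPushout _ _ _ _
      (CommRingCat.isPushout_tensorProduct R k A)).flip
  -- compose with the monomorphism `jV`
  have P2 : IsPullback (Spec.map (CommRingCat.ofHom
        (Algebra.TensorProduct.includeRight : A →ₐ[R] k ⊗[R] A).toRingHom))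
      (Spec.map (CommRingCat.ofHom (Algebra.TensorProduct.includeLeftRingHom : k →+* k ⊗[R] A)))
      (Spec.map (CommRingCat.ofHom (algebraMap R A)) ≫ jV)
      (Spec.map (CommRingCat.ofHom (algebraMap R k)) ≫ jV) :=
    IsPullback.of_isLimit (PullbackCone.isLimitOfCompMono _ _ jV _ P1.isLimit)
  have P3 : IsPullback (Spec.map (CommRingCat.ofHom
        (Algebra.TensorProduct.includeRight : A →ₐ[R] k ⊗[R] A).toRingHom))
      (Spec.map (CommRingCat.ofHom (Algebra.TensorProduct.includeLeftRingHom : k →+* k ⊗[R] A)) ≫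
        e.hom) (jU ≫ f) (Y.fromSpecResidueField y) := by
    refine IsPullback.of_iso P2 (Iso.refl _) (Iso.refl _) e (Iso.refl _) ?_ ?_ ?_ ?_
    · simp
    · simp
    · simpa using w.symm
    · simpa using hk
  have P4 : IsPullback (f.fiberι y) (f.fiberToSpecResidueField y) f (Y.fromSpecResidueField y) :=
    IsPullback.of_hasPullback _ _
  let j : Spec (CommRingCat.of (k ⊗[R] A)) ⟶ f.fiber y :=
    P4.lift (Spec.map (CommRingCat.ofHom
        (Algebra.TensorProduct.includeRight : A →ₐ[R] k ⊗[R] A).toRingHom) ≫ jU)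
      (Spec.map (CommRingCat.ofHom (Algebra.TensorProduct.includeLeftRingHom : k →+* k ⊗[R] A)) ≫
        e.hom) (by rw [Category.assoc]; exact P3.w)
  have hj1 : j ≫ f.fiberι y = Spec.map (CommRingCat.ofHom
        (Algebra.TensorProduct.includeRight : A →ₐ[R] k ⊗[R] A).toRingHom) ≫ jU :=
    P4.lift_fst _ _ _
  have hj2 : j ≫ f.fiberToSpecResidueField y =
      Spec.map (CommRingCat.ofHom (Algebra.TensorProduct.includeLeftRingHom : k →+* k ⊗[R] A)) ≫
        e.hom := P4.lift_snd _ _ _
  have P5 : IsPullback j (Spec.map (CommRingCat.ofHom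
        (Algebra.TensorProduct.includeRight : A →ₐ[R] k ⊗[R] A).toRingHom)) (f.fiberι y) jU := by
    refine IsPullback.of_right (h₁₂ := f.fiberToSpecResidueField y) (v₁₃ := Y.fromSpecResidueField y)
      (h₂₂ := f) ?_ hj1 ?_
    · rw [hj2]; exact P3.flip
    · exact P4.flip
  have hj : IsOpenImmersion j := MorphismProperty.of_isPullback P5.flip inferInstance
  refine ⟨j, hj, hj1, fun x hx => ?_⟩
  obtain ⟨z, hz⟩ := hx
  obtain ⟨t, ht1, -⟩ := Scheme.exists_preimage_of_isPullback P5 x z hz.symm
  exact ⟨t, ht1⟩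

end Groth.Agent.Dual.H347.FibChart
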