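import Groth.Agent.Dual.H347.FibreModel
import Groth.Agent.S3662

/-!
# The fibres of a relative dualizing complex are dualizing complexes

`isDualizing_of_shriekModel`: for `f : X ⟶ Y` flat and locally of finite type between locally Noetherian
schemes, and `K : D(O_X)` locally given by the algebraic upper shriek of the structure sheaf, the derived
pullback of `K` to a fibre of `f` is a dualizing complex on the fibre.
-/

set_option autoImplicit false
universe u
open CategoryTheory CategoryTheory.Limits AlgebraicGeometry TensorProduct
attribute [local instance] HasDerivedCategory.standard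

namespace Groth.Agent.Dual.H347.FibreMain

open Groth.Agent.Dual.H347.FibreModel

theorem isLocallyNoetherian_fiber {X Y : Scheme.{u}} (f : X ⟶ Y) [LocallyOfFiniteType f] (y : Y) :
    IsLocallyNoetherian (f.fiber y) := by
  have : LocallyOfFiniteType (f.fiberToSpecResidueField y) :=
    MorphismProperty.pullback_snd _ _ inferInstance
  have : IsLocallyNoetherian (Spec (Y.residueField y)) := by
    have : IsNoetherianRing (Y.residueField y) :=
      inferInstanceAs (IsNoetherianRing (IsLocalRing.ResidueField (Y.presheaf.stalk y)))
    infer_instance
  exact LocallyOfFiniteType.isLocallyNoetherian (f.fiberToSpecResidueField y)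

theorem isDualizing_of_shriekModel {X Y : Scheme.{u}} [IsLocallyNoetherian X]
    [IsLocallyNoetherian Y] (f : X ⟶ Y) [LocallyOfFiniteType f] [Flat f]
    [∀ (U V : Scheme.{u}) (j : U ⟶ V) [IsOpenImmersion j],
      PreservesFiniteLimits (Scheme.Modules.restrictFunctor j)]
    [∀ (R : CommRingCat.{u}), PreservesFiniteLimits (tilde.functor R)]
    {K : DCoh.D X} (hK : ShriekModel f K) (y : Y) [DCoh.HasLpull (f.fiberι y)] :
    Dual2.IsDualizingSch (f.fiber y) ((DCoh.Lpull (f.fiberι y)).obj K) := by
  have := isLocallyNoetherian_fiber f y
  choose B hB j hj hx ω hω using fun x : f.fiber y => exists_model f hK y x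
  exact Groth.Agent.S3662.result (f.fiber y) _ (f.fiber y) B j (fun x => ⟨x, hx x⟩)
    (fun x => ⟨ω x, hω x⟩)

end Groth.Agent.Dual.H347.FibreMain
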