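import Groth.Agent.Dual.H347.FibChart
import Groth.Agent.S1055
import Groth.Agent.S1801
import Groth.Agent.S0959
import Groth.Agent.PerfC.LpullRestrict
import Groth.Agent.LoccohB.RAdj
import Groth.Agent.LoccohB.LBC
import Groth.Prelude.Def_DualSh
import Groth.Prelude.Def_DualSch
import Groth.Prelude.Def_Dual3

/-!
# Local models of the restriction of a relative dualizing complex to a fibre

`ShriekModel f K`: over compatible affine charts `Spec A → X`, `Spec R → Y` of Noetherian rings, with a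
presentation `R[x₁,…,xₙ] → A`, the restriction of `K` to `Spec A` is the complex attached to
`RHom_P(A, P)[n]`.  For `f` flat and locally of finite type the derived pullback of such a `K` to a fibre of
`f` is locally the tilde of a dualizing complex.
-/

set_option autoImplicit false
universe u
open CategoryTheory CategoryTheory.Limits AlgebraicGeometry TensorProduct
attribute [local instance] HasDerivedCategory.standard

namespace Groth.Agent.Dual.H347.FibreModel

variable {X Y : Scheme.{u}} (f : X ⟶ Y)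

/-- `K` is locally the algebraic upper shriek of the structure sheaf. -/
def ShriekModel [∀ (U V : Scheme.{u}) (j : U ⟶ V) [IsOpenImmersion j],
      PreservesFiniteLimits (Scheme.Modules.restrictFunctor j)]
    [∀ (R : CommRingCat.{u}), PreservesFiniteLimits (tilde.functor R)] (K : DCoh.D X) : Prop :=
  ∀ (R A : Type u) [CommRing R] [CommRing A] [IsNoetherianRing R] [IsNoetherianRing A]
    [Algebra R A] (jU : Spec (CommRingCat.of A) ⟶ X) [IsOpenImmersion jU]
    (jV : Spec (CommRingCat.of R) ⟶ Y) [IsOpenImmersion jV]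
    (_ : jU ≫ f = Spec.map (CommRingCat.ofHom (algebraMap R A)) ≫ jV)
    (n : ℕ) (ψ : MvPolynomial (Fin n) R →ₐ[R] A) (_ : Function.Surjective ψ)
    [DRing.HasLBaseChange (algebraMap R (MvPolynomial (Fin n) R))]
    (Rψ : Dual.D (MvPolynomial (Fin n) R) ⥤ Dual.D A)
    (_ : DRing.restrictD ψ.toRingHom ⊣ Rψ),
    Nonempty ((DCoh.restrictD jU).obj K ≅
      (DCoh.tildeD (CommRingCat.of A)).obj (Dual2.shriekVia n Rψ (Dual.inD R R)))

/-- Compatible affine charts of a morphism at a point. -/
theorem exists_charts [IsLocallyNoetherian X] [IsLocallyNoetherian Y] [LocallyOfFiniteType f] [Flat f]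
    (x : X) :
    ∃ (R A : Type u) (_ : CommRing R) (_ : CommRing A) (_ : IsNoetherianRing R)
      (_ : IsNoetherianRing A) (_ : Algebra R A) (_ : Module.Flat R A)
      (_ : Algebra.FiniteType R A)
      (jU : Spec (CommRingCat.of A) ⟶ X) (_ : IsOpenImmersion jU)
      (jV : Spec (CommRingCat.of R) ⟶ Y) (_ : IsOpenImmersion jV),
      jU ≫ f = Spec.map (CommRingCat.ofHom (algebraMap R A)) ≫ jV ∧ x ∈ Set.range jU := by
  obtain ⟨_, ⟨V, hV, rfl⟩, hxV, -⟩ := Y.isBasis_affineOpens.exists_subset_of_mem_open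
    (Set.mem_univ (f x)) isOpen_univ
  obtain ⟨_, ⟨U, hU, rfl⟩, hxU, hUV⟩ := X.isBasis_affineOpens.exists_subset_of_mem_open
    (show x ∈ ((f ⁻¹ᵁ V : X.Opens) : Set X) from hxV) (f ⁻¹ᵁ V).isOpen
  replace hUV : U ≤ f ⁻¹ᵁ V := hUV
  let _ : Algebra Γ(Y, V) Γ(X, U) := (f.appLE V U hUV).hom.toAlgebra
  have hflat : Module.Flat Γ(Y, V) Γ(X, U) := f.flat_appLE hV hU hUV
  have hft : Algebra.FiniteType Γ(Y, V) Γ(X, U) := f.finiteType_appLE hV hU hUV
  have hNV : IsNoetherianRing Γ(Y, V) := IsLocallyNoetherian.component_noetherian ⟨V, hV⟩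
  have hNU : IsNoetherianRing Γ(X, U) := IsLocallyNoetherian.component_noetherian ⟨U, hU⟩
  refine ⟨Γ(Y, V), Γ(X, U), inferInstance, inferInstance, hNV, hNU, inferInstance, hflat, hft,
    hU.fromSpec, inferInstance, hV.fromSpec, inferInstance, ?_, ?_⟩
  · exact (hV.SpecMap_appLE_fromSpec f hU hUV).symm
  · rw [hU.range_fromSpec]
    exact hxU

/-- The residue field of a point in an affine chart. -/
theorem exists_residue {R : Type u} [CommRing R] (jV : Spec (CommRingCat.of R) ⟶ Y)
    [IsOpenImmersion jV] (y : Y) (hy : y ∈ Set.range jV) :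
    ∃ (k : Type u) (_ : Field k) (_ : Algebra R k)
      (e : Spec (CommRingCat.of k) ≅ Spec (Y.residueField y)),
      Spec.map (CommRingCat.ofHom (algebraMap R k)) ≫ jV =
        e.hom ≫ Y.fromSpecResidueField y := by
  have h : Set.range (Y.fromSpecResidueField y) ⊆ Set.range jV := by
    rw [Scheme.range_fromSpecResidueField]
    exact Set.singleton_subset_iff.2 hy
  let l : Spec (Y.residueField y) ⟶ Spec (CommRingCat.of R) :=
    IsOpenImmersion.lift jV (Y.fromSpecResidueField y) h
  let φ : R →+* IsLocalRing.ResidueField (Y.presheaf.stalk y) := (Spec.preimage l).hom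
  refine ⟨IsLocalRing.ResidueField (Y.presheaf.stalk y), inferInstance, φ.toAlgebra,
    Iso.refl _, ?_⟩
  have h1 : Spec.map (CommRingCat.ofHom φ) = l := Spec.map_preimage l
  have h2 : Spec.map (CommRingCat.ofHom φ) ≫ jV = Y.fromSpecResidueField y := by
    rw [h1]
    exact IsOpenImmersion.lift_fac _ _ _
  exact h2.trans (Category.id_comp _).symm

variable [∀ (U V : Scheme.{u}) (j : U ⟶ V) [IsOpenImmersion j],
      PreservesFiniteLimits (Scheme.Modules.restrictFunctor j)]
    [∀ (R : CommRingCat.{u}), PreservesFiniteLimits (tilde.functor R)]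

/-- Local models of the derived pullback to a fibre. -/
theorem exists_model [IsLocallyNoetherian X] [IsLocallyNoetherian Y] [LocallyOfFiniteType f] [Flat f]
    {K : DCoh.D X} (hK : ShriekModel f K) (y : Y) [DCoh.HasLpull (f.fiberι y)] (x : f.fiber y) :
    ∃ (B : Type u) (_ : CommRing B) (j : Spec (CommRingCat.of B) ⟶ f.fiber y)
      (_ : IsOpenImmersion j), x ∈ Set.range j ∧ ∃ ω : Dual.D B, Dual.IsDualizing B ω ∧
        Nonempty ((DCoh.restrictD j).obj ((DCoh.Lpull (f.fiberι y)).obj K) ≅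
          (DCoh.tildeD (CommRingCat.of B)).obj ω) := by
  obtain ⟨R, A, _, _, _, _, _, _, _, jU, _, jV, _, w, hx⟩ := exists_charts f (f.fiberι y x)
  have hy : y ∈ Set.range jV := by
    obtain ⟨z, hz⟩ := hx
    have h1 : f (f.fiberι y x) = y := by
      have h2 : f.fiberι y x ∈ f ⁻¹' {y} := by
        rw [← f.range_fiberι y]
        exact ⟨x, rfl⟩
      exact h2
    refine ⟨Spec.map (CommRingCat.ofHom (algebraMap R A)) z, ?_⟩
    rw [← Scheme.Hom.comp_apply, ← w, Scheme.Hom.comp_apply, hz, h1]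
  obtain ⟨k, _, _, e, he⟩ := exists_residue jV y hy
  obtain ⟨j, hj, hj1, hj2⟩ := FibChart.exists_chart f y jU jV w e he
  refine ⟨k ⊗[R] A, inferInstance, j, hj, hj2 x hx, ?_⟩
  obtain ⟨n, ψ, hψ⟩ := Algebra.FiniteType.iff_quotient_mvPolynomial''.1 (inferInstance :
    Algebra.FiniteType R A)
  have : DRing.HasLBaseChange (algebraMap R (MvPolynomial (Fin n) R)) :=
    Groth.Agent.LoccohB.LBC.hasLBaseChange _
  have : DRing.HasLBaseChange
      (Algebra.TensorProduct.includeRight : A →ₐ[R] k ⊗[R] A).toRingHom :=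
    Groth.Agent.LoccohB.LBC.hasLBaseChange _
  have : DCoh.HasLpull (Spec.map (CommRingCat.ofHom
      (Algebra.TensorProduct.includeRight : A →ₐ[R] k ⊗[R] A).toRingHom)) := S0959.result _
  obtain ⟨-, -, -, -, h5⟩ := S1801.result R A n ψ hψ _ (Groth.Agent.LoccohB.RAdj.coextAdj _)
  refine ⟨_, h5 k, ?_⟩
  obtain ⟨e1⟩ := hK R A jU jV w n ψ hψ _ (Groth.Agent.LoccohB.RAdj.coextAdj _)
  obtain ⟨e2⟩ := Groth.Agent.PerfC.LpullRestrict.nonempty_restrict_lpull (g := f.fiberι y) jU j
    hj1.symm K
  obtain ⟨e3⟩ := S1055.result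
    (Algebra.TensorProduct.includeRight : A →ₐ[R] k ⊗[R] A).toRingHom
  exact ⟨e2 ≪≫ (DCoh.Lpull _).mapIso e1 ≪≫ (e3.app _).symm⟩

end Groth.Agent.Dual.H347.FibreModel
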